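import Cfsg.Agent.SUThree.Involutions

/-!
# The commuting graph of involutions of `SU₃`
-/

set_option autoImplicit false
set_option linter.style.haveILetI false
set_option linter.unusedSectionVars false

noncomputable section

open scoped Matrix

namespace Cfsg.Agent.SUThree

variable {F : Type*} [Field F] [Fintype F] [StarRing F] {q : ℕ}

local notation "M" => Matrix (Fin 3) (Fin 3) F
set_option quotPrecheck false in
local notation "𝕌" => ↥(Cfsg.SU 3 F q)

variable (hq : ∀ x : F, star x = x ^ q) (hqodd : Odd q) (hF : Fintype.card F = q ^ 2)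

include hq hqodd hF

theorem commute_iff_ip {v w : Fin 3 → F} (hv : ip v v = 1) (hw : ip w w = 1) :
    Commute (T v) (T w) ↔ ip v w = 0 ∨ w = ip v w • v := by
  rw [commute_T_iff (two_ne hqodd hF) hv hw, T_eq_iff (two_ne hqodd hF) hv hw]

theorem adjacent_iff {t x : 𝕌} {v w : Fin 3 → F} (ht : toM t = T v) (hx : toM x = T w)
    (hv : ip v v = 1) (hw : ip w w = 1) : (x ≠ t ∧ Commute t x) ↔ ip v w = 0 := by
  have h2 := two_ne hqodd hF
  rw [← commute_toM, ht, hx, commute_T_iff h2 hv hw]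
  constructor
  · rintro ⟨hne, h | h⟩
    · exact h
    · exact absurd (toM_inj (by rw [ht, hx, h])) hne
  · intro h
    refine ⟨fun e => ?_, Or.inl h⟩
    have e' : T v = T w := by rw [← ht, ← hx, e]
    have := (T_eq_iff h2 hv hw).1 e'
    rw [h, zero_smul] at this
    rw [this] at hw
    simp [ip] at hw

theorem exists_scalar_norm {d : F} (hd : star d = d) (hd0 : d ≠ 0) : ∃ c : F, c ≠ 0 ∧ star c * c = d := by
  obtain ⟨c, hc⟩ := (Classical.U.sqField_of_fintype hF).exists_norm (c := d) (by rw [← hq]; exact hd)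
  refine ⟨c, fun e => hd0 ?_, by rw [hq, ← hc, pow_succ]⟩
  rw [← hc, e, zero_pow (Nat.succ_ne_zero q)]

theorem exists_between {v w : Fin 3 → F} (hv : ip v v = 1) (hw : ip w w = 1)
    (hN : ip v w * star (ip v w) ≠ 1) : ∃ u, ip u u = 1 ∧ ip v u = 0 ∧ ip w u = 0 := by
  have hd : 1 - ip v w * star (ip v w) ≠ 0 := sub_ne_zero.2 (Ne.symm hN)
  obtain ⟨c, hc0, hc⟩ := exists_scalar_norm hq hqodd hF
    (d := 1 - ip v w * star (ip v w)) (by rw [star_sub, star_one, star_mul', star_star, mul_comm]) hd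
  refine ⟨c⁻¹ • cross v w, ?_, by rw [ip_smul_right, ip_cross_left, mul_zero],
    by rw [ip_smul_right, ip_cross_right, mul_zero]⟩
  rw [ip_smul_left, ip_smul_right, ip_cross_self hv hw, ← hc, star_inv₀]
  have : star c ≠ 0 := fun e => hc0 (star_eq_zero.1 e)
  field_simp

theorem between_norm {v w u : Fin 3 → F} (hv : ip v v = 1) (hw : ip w w = 1) (hu : ip u u = 1)
    (hvu : ip v u = 0) (hwu : ip w u = 0) (hN : ip v w * star (ip v w) = 1) : w = ip v w • v := by
  obtain ⟨c, hc, hvc, huc⟩ := exists_between hq hqodd hF hv hu (by rw [hvu, zero_mul]; exact zero_ne_one)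
  have hd := decompose hv hu hc hvu hvc huc w
  have huw : ip u w = 0 := by rw [← ip_symm, hwu, star_zero]
  rw [huw, zero_smul, add_zero] at hd
  have hw' := hw
  rw [hd] at hw'
  have hadd : ∀ a a' b : Fin 3 → F, ip (a + a') b = ip a b + ip a' b := fun a a' b => by simp [ip]
  have hcv : ip c v = 0 := by rw [← ip_symm, hvc, star_zero]
  rw [hadd, ip_add_right, ip_add_right, ip_smul_left, ip_smul_left, ip_smul_left, ip_smul_left,
    ip_smul_right, ip_smul_right, ip_smul_right, ip_smul_right, hv, hvc, hcv, hc] at hw'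
  have hz : star (ip c w) * ip c w = 0 := by linear_combination hw' - hN
  have hz' : ip c w = 0 := by
    rcases mul_eq_zero.1 hz with h | h
    · exact star_eq_zero.1 h
    · exact h
  rw [hz', zero_smul, add_zero] at hd
  exact hd

theorem link_iff {t x : 𝕌} {v w : Fin 3 → F} (ht : toM t = T v) (hx : toM x = T w)
    (hv : ip v v = 1) (hw : ip w w = 1) (hnc : ¬ Commute t x) :
    (∃ y : 𝕌, y ≠ 1 ∧ y * y = 1 ∧ Commute t y ∧ Commute y x) ↔ ip v w * star (ip v w) ≠ 1 := by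
  have h2 := two_ne hqodd hF
  constructor
  · rintro ⟨y, hy1, hy2, hty, hyx⟩ hN
    obtain ⟨u, hu, hyu⟩ := exists_T hq hqodd hF y hy1 hy2
    have h1 : ip v u = 0 := by
      refine (adjacent_iff hq hqodd hF ht hyu hv hu).1 ⟨fun e => hnc ?_, hty⟩
      rwa [e] at hyx
    have h3 : ip w u = 0 := by
      refine (adjacent_iff hq hqodd hF hx hyu hw hu).1 ⟨fun e => hnc ?_, hyx.symm⟩
      rwa [e] at hty
    apply hnc
    rw [← commute_toM, ht, hx, commute_iff_ip hq hqodd hF hv hw]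
    exact Or.inr (between_norm hq hqodd hF hv hw hu h1 h3 hN)
  · intro hN
    obtain ⟨u, hu, h1, h3⟩ := exists_between hq hqodd hF hv hw hN
    obtain ⟨y, hy⟩ := exists_toM_T (q := q) hq hu
    refine ⟨y, ne_one_toM.1 (by rw [hy]; exact T_ne_one h2 hu),
      toM_inj (by show toM y * toM y = 1; rw [hy, T_sq hu]), ((adjacent_iff hq hqodd hF ht hy hv hu).2 h1).2,
      ((adjacent_iff hq hqodd hF hx hy hw hu).2 h3).2.symm⟩

theorem exists_conj_base (t : 𝕌) (ht : t ≠ 1) (ht2 : t * t = 1) :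
    ∃ g : M, star g * g = 1 ∧ toM t = T (g *ᵥ e₀) := by
  obtain ⟨t₀, h0⟩ := exists_toM_T (q := q) hq (ip_e₀ (F := F))
  obtain ⟨g, hg⟩ := involutions_conj hq hqodd hF t₀ t
    (ne_one_toM.1 (by rw [h0]; exact T_ne_one (two_ne hqodd hF) ip_e₀))
    (toM_inj (by show toM t₀ * toM t₀ = 1; rw [h0, T_sq ip_e₀])) ht ht2
  refine ⟨toM g, star_toM_mul hq g, ?_⟩
  rw [← hg, ← conj_T (star_toM_mul hq g), ← h0]
  show toM g * toM t₀ * toM (g⁻¹) = _
  congr 1
  have h1 : toM g * toM g⁻¹ = 1 := congrArg toM (mul_inv_cancel g)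
  calc toM g⁻¹ = (star (toM g) * toM g) * toM g⁻¹ := by rw [star_toM_mul hq, one_mul]
    _ = _ := by rw [mul_assoc, h1, mul_one]

theorem mulVec_equiv_card {g : M} (hg : star g * g = 1) (P : F → (Fin 3 → F) → (Fin 3 → F) → Prop) :
    Nat.card {w : Fin 3 → F // ip w w = 1 ∧ P (ip (g *ᵥ e₀) (g *ᵥ w)) (g *ᵥ e₀) (g *ᵥ w)} =
      Nat.card {w : Fin 3 → F // ip w w = 1 ∧ P (ip (g *ᵥ e₀) w) (g *ᵥ e₀) w} := by
  have hg' : g * star g = 1 := mul_eq_one_comm.1 hg
  refine Nat.card_congr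
    { toFun := fun w => ⟨g *ᵥ w.1, by rw [ip_mulVec hg]; exact w.2.1, w.2.2⟩
      invFun := fun w => ⟨star g *ᵥ w.1, ?_, ?_⟩
      left_inv := fun w => Subtype.ext (by simp [Matrix.mulVec_mulVec, hg])
      right_inv := fun w => Subtype.ext (by simp [Matrix.mulVec_mulVec, hg']) }
  · rw [ip_mulVec (by rw [star_star, hg'])]; exact w.2.1
  · rw [Matrix.mulVec_mulVec, hg', Matrix.one_mulVec]; exact w.2.2

theorem card_adjacent (t : 𝕌) (ht : t ≠ 1) (ht2 : t * t = 1) :
    Nat.card {x : 𝕌 // x ≠ 1 ∧ x * x = 1 ∧ x ≠ t ∧ Commute t x} = q * (q - 1) := by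
  obtain ⟨g, hg, hgt⟩ := exists_conj_base hq hqodd hF t ht ht2
  set v := g *ᵥ e₀ with hv
  have hvv : ip v v = 1 := by rw [hv, ip_mulVec hg, ip_e₀]
  have hq1 := (Classical.U.sqField_of_fintype hF).one_lt
  have h := card_fibre hq hqodd hF fun A => A ≠ toM t ∧ Commute (toM t) A
  have e1 : Nat.card {x : 𝕌 // (x ≠ 1 ∧ x * x = 1) ∧ (toM x ≠ toM t ∧ Commute (toM t) (toM x))} =
      Nat.card {x : 𝕌 // x ≠ 1 ∧ x * x = 1 ∧ x ≠ t ∧ Commute t x} := by
    refine Nat.card_congr (Equiv.subtypeEquivRight fun x => ?_)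
    rw [commute_toM, and_assoc]
    exact and_congr_right fun _ => and_congr_right fun _ => and_congr_left fun _ =>
      ⟨fun h e => h (congrArg toM e), fun h e => h (toM_inj e)⟩
  have e2 : Nat.card {w : Fin 3 → F // ip w w = 1 ∧ (T w ≠ toM t ∧ Commute (toM t) (T w))} =
      Nat.card {w : Fin 3 → F // ip w w = 1 ∧ ip v w = 0} := by
    refine Nat.card_congr (Equiv.subtypeEquivRight fun w => and_congr_right fun hw => ?_)
    obtain ⟨x, hx⟩ := exists_toM_T (q := q) hq hw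
    rw [← adjacent_iff hq hqodd hF hgt hx hvv hw, ← hx, commute_toM]
    exact and_congr_left fun _ => ⟨fun h e => h (congrArg toM e), fun h e => h (toM_inj e)⟩
  have e3 : Nat.card {w : Fin 3 → F // ip w w = 1 ∧ ip v w = 0} =
      Nat.card {w : Fin 2 → F // star w ⬝ᵥ w = 1} := by
    rw [← mulVec_equiv_card hq hqodd hF hg (fun c _ _ => c = 0)]
    refine Nat.card_congr
      { toFun := fun w => ⟨Fin.tail w.1, ?_⟩
        invFun := fun w => ⟨Fin.cons 0 w.1, ?_, ?_⟩
        left_inv := fun w => Subtype.ext ?_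
        right_inv := fun w => Subtype.ext (by exact Fin.tail_cons (α := fun _ => F) (0 : F) w.1) }
    · obtain ⟨h1, h2⟩ := w.2
      rw [ip_mulVec hg, ip_e₀_left] at h2
      rw [ip, dotProduct, Fin.sum_univ_succ, Pi.star_apply, h2, star_zero, zero_mul, zero_add] at h1
      exact h1
    · have h1 := w.2
      rw [dotProduct] at h1
      rw [ip, dotProduct, Fin.sum_univ_succ]
      simp only [Pi.star_apply, Fin.cons_zero, Fin.cons_succ, star_zero, zero_mul, zero_add] at h1 ⊢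
      exact h1
    · rw [ip_mulVec hg, ip_e₀_left, Fin.cons_zero]
    · obtain ⟨h1, h2⟩ := w.2
      rw [ip_mulVec hg, ip_e₀_left] at h2
      conv_rhs => rw [← Fin.cons_self_tail w.1, h2]
  rw [e2, e3, e1, card_vectors hq hF 2 1] at h
  have h3 := ((Classical.U.sqField_of_fintype hF).card_values_int 2).1
  rw [h] at h3
  refine Int.natCast_inj.1 (mul_left_cancel₀ (show (q : ℤ) * (q + 1) ≠ 0 by positivity) ?_)
  push_cast [Nat.cast_sub (by omega : 1 ≤ q)] at h3 ⊢
  linear_combination h3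

theorem card_far (t : 𝕌) (ht : t ≠ 1) (ht2 : t * t = 1) :
    Nat.card {x : 𝕌 // x ≠ 1 ∧ x * x = 1 ∧ ¬ Commute t x ∧
      ∀ y : 𝕌, y ≠ 1 → y * y = 1 → ¬ (Commute t y ∧ Commute y x)} = (q + 1) * (q ^ 2 - 1) := by
  obtain ⟨g, hg, hgt⟩ := exists_conj_base hq hqodd hF t ht ht2
  set v := g *ᵥ e₀ with hv
  have hvv : ip v v = 1 := by rw [hv, ip_mulVec hg, ip_e₀]
  have hq1 := (Classical.U.sqField_of_fintype hF).one_lt
  have h := card_fibre hq hqodd hF fun A => ¬ Commute (toM t) A ∧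
    ∀ y : 𝕌, y ≠ 1 → y * y = 1 → ¬ (Commute t y ∧ Commute (toM y) A)
  have e1 : Nat.card {x : 𝕌 // (x ≠ 1 ∧ x * x = 1) ∧ (¬ Commute (toM t) (toM x) ∧
      ∀ y : 𝕌, y ≠ 1 → y * y = 1 → ¬ (Commute t y ∧ Commute (toM y) (toM x)))} =
      Nat.card {x : 𝕌 // x ≠ 1 ∧ x * x = 1 ∧ ¬ Commute t x ∧
        ∀ y : 𝕌, y ≠ 1 → y * y = 1 → ¬ (Commute t y ∧ Commute y x)} := by
    refine Nat.card_congr (Equiv.subtypeEquivRight fun x => ?_)
    simp only [commute_toM, and_assoc]
  have e2 : Nat.card {w : Fin 3 → F // ip w w = 1 ∧ (¬ Commute (toM t) (T w) ∧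
      ∀ y : 𝕌, y ≠ 1 → y * y = 1 → ¬ (Commute t y ∧ Commute (toM y) (T w)))} =
      Nat.card {w : Fin 3 → F // ip w w = 1 ∧ (ip v w * star (ip v w) = 1 ∧ w ≠ ip v w • v)} := by
    refine Nat.card_congr (Equiv.subtypeEquivRight fun w => and_congr_right fun hw => ?_)
    obtain ⟨x, hx⟩ := exists_toM_T (q := q) hq hw
    have hall : (∀ y : 𝕌, y ≠ 1 → y * y = 1 → ¬ (Commute t y ∧ Commute (toM y) (T w))) ↔
        ¬ ∃ y : 𝕌, y ≠ 1 ∧ y * y = 1 ∧ Commute t y ∧ Commute y x := by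
      simp only [← hx, commute_toM]
      constructor
      · rintro h ⟨y, h1, h2, h3, h4⟩
        exact h y h1 h2 ⟨h3, h4⟩
      · rintro h y h1 h2 ⟨h3, h4⟩
        exact h ⟨y, h1, h2, h3, h4⟩
    rw [hall]
    constructor
    · rintro ⟨hnc, hno⟩
      have hnc' : ¬ Commute t x := by rwa [← commute_toM, hx]
      have hN := not_not.1 (fun hN => hno ((link_iff hq hqodd hF hgt hx hvv hw hnc').2 hN))
      rw [hgt, commute_iff_ip hq hqodd hF hvv hw, not_or] at hnc
      exact ⟨hN, hnc.2⟩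
    · rintro ⟨hN, hne⟩
      have hnc : ¬ Commute (toM t) (T w) := by
        rw [hgt, commute_iff_ip hq hqodd hF hvv hw]
        rintro (h | h)
        · rw [h, zero_mul] at hN; exact zero_ne_one hN
        · exact hne h
      refine ⟨hnc, fun he => ?_⟩
      exact (link_iff hq hqodd hF hgt hx hvv hw (by rwa [← commute_toM, hx])).1 he hN
  have e3 : Nat.card {w : Fin 3 → F // ip w w = 1 ∧ (ip v w * star (ip v w) = 1 ∧ w ≠ ip v w • v)} =
      (q + 1) * (Nat.card {u : Fin 2 → F // star u ⬝ᵥ u = 0} - 1) := by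
    classical
    rw [← mulVec_equiv_card hq hqodd hF hg (fun c a b => c * star c = 1 ∧ b ≠ c • a)]
    have hsub : Nat.card {u : {u : Fin 2 → F // star u ⬝ᵥ u = 0} // u.1 ≠ 0} =
        Nat.card {u : Fin 2 → F // star u ⬝ᵥ u = 0} - 1 := by
      rw [Nat.card_eq_fintype_card, Nat.card_eq_fintype_card]
      have := Fintype.card_subtype_compl (fun u : {u : Fin 2 → F // star u ⬝ᵥ u = 0} => u = ⟨0, by simp⟩)
      rw [Fintype.card_subtype_eq] at this
      rw [← this]
      exact Fintype.card_congr (Equiv.subtypeEquivRight fun u => by simp [Subtype.ext_iff])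
    rw [← hsub, ← (Classical.U.sqField_of_fintype hF).card_norm_one, ← Nat.card_prod]
    have hnorm : ∀ c : F, c ^ (q + 1) = c * star c := fun c => by rw [hq, pow_succ']
    have hcond : ∀ w : Fin 3 → F, g *ᵥ w = ip (g *ᵥ e₀) (g *ᵥ w) • (g *ᵥ e₀) ↔ Fin.tail w = 0 := by
      intro w
      rw [ip_mulVec hg, ip_e₀_left, ← Matrix.mulVec_smul]
      constructor
      · intro he
        have he' := congrArg (fun z => star g *ᵥ z) he
        simp only [Matrix.mulVec_mulVec, hg, Matrix.one_mulVec] at he'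
        funext i
        rw [Fin.tail, he', Pi.smul_apply, e₀, Pi.single_eq_of_ne (Fin.succ_ne_zero i), smul_zero, Pi.zero_apply]
      · intro he
        congr 1
        funext i
        refine Fin.cases ?_ (fun j => ?_) i
        · simp [e₀]
        · rw [Pi.smul_apply, e₀, Pi.single_eq_of_ne (Fin.succ_ne_zero j), smul_zero]
          exact congrFun he j
    refine Nat.card_congr
      { toFun := fun w => (⟨w.1 0, ?_⟩, ⟨⟨Fin.tail w.1, ?_⟩, ?_⟩)
        invFun := fun w => ⟨Fin.cons w.1.1 w.2.1.1, ?_, ?_, ?_⟩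
        left_inv := fun w => Subtype.ext (Fin.cons_self_tail w.1)
        right_inv := fun w => Prod.ext (Subtype.ext (by exact Fin.cons_zero (α := fun _ => F) w.1.1 w.2.1.1))
          (Subtype.ext (Subtype.ext (by exact Fin.tail_cons (α := fun _ => F) w.1.1 w.2.1.1))) }
    · obtain ⟨h1, h2, h3⟩ := w.2
      rw [ip_mulVec hg, ip_e₀_left] at h2
      rw [hnorm, h2]
    · obtain ⟨h1, h2, h3⟩ := w.2
      rw [ip_mulVec hg, ip_e₀_left] at h2
      rw [ip, dotProduct, Fin.sum_univ_succ, Pi.star_apply, mul_comm, h2] at h1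
      exact add_eq_left.1 h1
    · obtain ⟨h1, h2, h3⟩ := w.2
      exact fun e => h3 ((hcond w.1).2 e)
    · have h1 := w.2.1.2
      have h2 := w.1.2
      rw [hnorm] at h2
      rw [dotProduct] at h1
      rw [ip, dotProduct, Fin.sum_univ_succ]
      simp only [Pi.star_apply, Fin.cons_zero, Fin.cons_succ] at h1 ⊢
      rw [h1, add_zero, mul_comm, h2]
    · rw [ip_mulVec hg, ip_e₀_left, Fin.cons_zero, ← hnorm]
      exact w.1.2
    · intro he
      apply w.2.2
      have := (hcond _).1 he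
      rwa [Fin.tail_cons] at this
  rw [e2, e3, e1] at h
  have hiso := ((Classical.U.sqField_of_fintype hF).card_values_int 2).2
  rw [← card_vectors hq hF 2 0] at hiso
  have hq2 : 1 ≤ q ^ 2 := Nat.one_le_pow 2 q (by omega)
  set Z := Nat.card {u : Fin 2 → F // star u ⬝ᵥ u = 0}
  have hZ : 1 ≤ Z := by
    haveI : Nonempty {u : Fin 2 → F // star u ⬝ᵥ u = 0} := ⟨⟨0, by simp⟩⟩
    exact Nat.card_pos
  refine Int.natCast_inj.1 (mul_left_cancel₀ (show (q : ℤ) * (q + 1) ≠ 0 by positivity) ?_)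
  have h' := congrArg (Nat.cast (R := ℤ)) h
  push_cast [Nat.cast_sub hZ, Nat.cast_sub hq2] at h' ⊢
  linear_combination (-(q : ℤ)) * h' + ((q : ℤ) + 1) * hiso

theorem card_middle (t : 𝕌) (ht : t ≠ 1) (ht2 : t * t = 1) :
    Nat.card {x : 𝕌 // x ≠ 1 ∧ x * x = 1 ∧ ¬ Commute t x ∧
      ∃ y : 𝕌, y ≠ 1 ∧ y * y = 1 ∧ Commute t y ∧ Commute y x} = q * (q - 2) * (q ^ 2 - 1) := by
  classical
  haveI : Fintype 𝕌 := Fintype.ofFinite _
  let P : 𝕌 → Prop := fun x => ∃ y : 𝕌, y ≠ 1 ∧ y * y = 1 ∧ Commute t y ∧ Commute y x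
  let A := Finset.univ.filter fun x : 𝕌 => x ≠ 1 ∧ x * x = 1
  have hcard : ∀ R : 𝕌 → Prop, Nat.card {x : 𝕌 // x ≠ 1 ∧ x * x = 1 ∧ R x} = (A.filter R).card := by
    intro R
    rw [Nat.card_eq_fintype_card, Fintype.card_subtype, Finset.filter_filter]
    congr 1
    ext x
    simp only [Finset.mem_filter, Finset.mem_univ, true_and, and_assoc]
  have hA : A.card = q ^ 2 * (q ^ 2 - q + 1) := by
    rw [← card_involutions hq hqodd hF, Nat.card_eq_fintype_card, Fintype.card_subtype]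
  have h1 := card_adjacent hq hqodd hF t ht ht2
  have h3 := card_far hq hqodd hF t ht ht2
  rw [hcard] at h1 h3
  rw [hcard]
  have s1 := Finset.card_filter_add_card_filter_not (s := A) (fun x => Commute t x)
  have s2 : (A.filter fun x => ¬ Commute t x ∧ P x).card + (A.filter fun x => ¬ Commute t x ∧ ¬ P x).card =
      (A.filter fun x => ¬ Commute t x).card := by
    rw [← Finset.card_filter_add_card_filter_not (s := A.filter fun x => ¬ Commute t x) P]
    congr 2 <;> ext x <;> simp only [Finset.mem_filter, and_assoc]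
  have hcomm : (A.filter fun x => Commute t x) = insert t (A.filter fun x => x ≠ t ∧ Commute t x) := by
    ext x
    simp only [A, Finset.mem_filter, Finset.mem_insert, Finset.mem_univ, true_and]
    constructor
    · rintro ⟨hx, hc⟩
      by_cases e : x = t
      · exact Or.inl e
      · exact Or.inr ⟨hx, e, hc⟩
    · rintro (rfl | ⟨hx, -, hc⟩)
      · exact ⟨⟨ht, ht2⟩, Commute.refl _⟩
      · exact ⟨hx, hc⟩
  have h1' : (A.filter fun x => x ≠ t ∧ Commute t x).card = q * (q - 1) := by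
    convert h1 using 3
  rw [hcomm, Finset.card_insert_of_notMem (by simp), hA] at s1
  have hfar : (A.filter fun x => ¬ Commute t x ∧ ¬ P x) =
      A.filter fun x => ¬ Commute t x ∧ ∀ y : 𝕌, y ≠ 1 → y * y = 1 → ¬ (Commute t y ∧ Commute y x) := by
    refine Finset.filter_congr fun x _ => and_congr_right fun _ => ?_
    simp only [P, not_exists, not_and]
  have h3' : (A.filter fun x => ¬ Commute t x ∧ ∀ y : 𝕌, y ≠ 1 → y * y = 1 → ¬ (Commute t y ∧ Commute y x)).card =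
      (q + 1) * (q ^ 2 - 1) := by convert h3 using 3
  rw [hfar, h3'] at s2
  suffices hs : (A.filter fun x => ¬ Commute t x ∧ P x).card = q * (q - 2) * (q ^ 2 - 1) by
    convert hs using 3
  have hq1 := (Classical.U.sqField_of_fintype hF).one_lt
  obtain ⟨k, hk⟩ := hqodd
  have hq3 : 2 ≤ q := hq1
  refine Int.natCast_inj.1 ?_
  have s1' := congrArg (Nat.cast (R := ℤ)) s1
  have h1'' := congrArg (Nat.cast (R := ℤ)) h1'
  have s2' := congrArg (Nat.cast (R := ℤ)) s2
  push_cast [Nat.cast_sub hq3, Nat.cast_sub (by omega : 1 ≤ q),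
    Nat.cast_sub (Nat.le_self_pow two_ne_zero q), Nat.cast_sub (Nat.one_le_pow 2 q (by omega))] at s1' s2' h1'' ⊢
  linear_combination s1' + s2' - h1''

theorem diameter (t x : 𝕌) (ht : t ≠ 1) (ht2 : t * t = 1) (hx1 : x ≠ 1) (hx2 : x * x = 1) :
    ∃ y z : 𝕌, y ≠ 1 ∧ y * y = 1 ∧ z ≠ 1 ∧ z * z = 1 ∧ Commute t y ∧ Commute y z ∧ Commute z x := by
  have h2 := two_ne hqodd hF
  by_cases hc : Commute t x
  · exact ⟨x, x, hx1, hx2, hx1, hx2, hc, Commute.refl _, Commute.refl _⟩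
  by_cases hP : ∃ y : 𝕌, y ≠ 1 ∧ y * y = 1 ∧ Commute t y ∧ Commute y x
  · obtain ⟨y, hy1, hy2, hty, hyx⟩ := hP
    exact ⟨y, x, hy1, hy2, hx1, hx2, hty, hyx, Commute.refl _⟩
  obtain ⟨v, hv, htv⟩ := exists_T hq hqodd hF t ht ht2
  obtain ⟨w, hw, hxw⟩ := exists_T hq hqodd hF x hx1 hx2
  have hN : ip v w * star (ip v w) = 1 := not_not.1 fun h => hP ((link_iff hq hqodd hF htv hxw hv hw hc).2 h)
  obtain ⟨a, ha, hva⟩ := exists_orth hq hqodd hF hv
  obtain ⟨b, hb, hvb, hab⟩ := exists_between hq hqodd hF hv ha (by rw [hva, zero_mul]; exact zero_ne_one)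
  obtain ⟨u, hu, hvu, hne⟩ : ∃ u, ip u u = 1 ∧ ip v u = 0 ∧ ip u w * star (ip u w) ≠ 1 := by
    by_contra! hall
    have hav : ip a v = 0 := by rw [← ip_symm, hva, star_zero]
    have hbv : ip b v = 0 := by rw [← ip_symm, hvb, star_zero]
    have hba : ip b a = 0 := by rw [← ip_symm, hab, star_zero]
    have hd := decompose hv ha hb hva hvb hab w
    have hw' := hw
    conv at hw' => lhs; arg 2; rw [hd]
    rw [ip_add_right, ip_add_right, ip_smul_right, ip_smul_right, ip_smul_right,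
      ← ip_symm v w, ← ip_symm a w, ← ip_symm b w, hN, hall a ha hva, hall b hb hvb] at hw'
    refine h2 ?_
    linear_combination hw'
  obtain ⟨y, hy⟩ := exists_toM_T (q := q) hq hu
  have hy1 : y ≠ 1 := ne_one_toM.1 (by rw [hy]; exact T_ne_one h2 hu)
  have hy2 : y * y = 1 := toM_inj (by show toM y * toM y = 1; rw [hy, T_sq hu])
  have hty : Commute t y := ((adjacent_iff hq hqodd hF htv hy hv hu).2 hvu).2
  obtain ⟨z, hz1, hz2, hyz, hzx⟩ :=
    (link_iff hq hqodd hF hy hxw hu hw (fun h => hP ⟨y, hy1, hy2, hty, h⟩)).2 hne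
  exact ⟨y, z, hy1, hy2, hz1, hz2, hty, hyz, hzx⟩

theorem card_third (t x : 𝕌) (ht : t ≠ 1) (ht2 : t * t = 1) (hx1 : x ≠ 1) (hx2 : x * x = 1)
    (hne : x ≠ t) (hc : Commute t x) :
    Nat.card {y : 𝕌 // y ≠ 1 ∧ y * y = 1 ∧ y ≠ t ∧ y ≠ x ∧ Commute t y ∧ Commute x y} = 1 := by
  have h2 := two_ne hqodd hF
  obtain ⟨v, hv, htv⟩ := exists_T hq hqodd hF t ht ht2
  obtain ⟨w, hw, hxw⟩ := exists_T hq hqodd hF x hx1 hx2
  have hvw : ip v w = 0 := (adjacent_iff hq hqodd hF htv hxw hv hw).1 ⟨hne, hc⟩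
  obtain ⟨u, hu, hvu, hwu⟩ := exists_between hq hqodd hF hv hw (by rw [hvw, zero_mul]; exact zero_ne_one)
  obtain ⟨y, hy⟩ := exists_toM_T (q := q) hq hu
  have a1 := (adjacent_iff hq hqodd hF htv hy hv hu).2 hvu
  have a2 := (adjacent_iff hq hqodd hF hxw hy hw hu).2 hwu
  refine Nat.card_eq_one_iff_exists.2 ⟨⟨y, ne_one_toM.1 (by rw [hy]; exact T_ne_one h2 hu),
    toM_inj (by show toM y * toM y = 1; rw [hy, T_sq hu]), a1.1, a2.1, a1.2, a2.2⟩, ?_⟩
  rintro ⟨z, hz1, hz2, hzt, hzx, htz, hxz⟩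
  obtain ⟨r, hr, hzr⟩ := exists_T hq hqodd hF z hz1 hz2
  have b1 := (adjacent_iff hq hqodd hF htv hzr hv hr).1 ⟨hzt, htz⟩
  have b2 := (adjacent_iff hq hqodd hF hxw hzr hw hr).1 ⟨hzx, hxz⟩
  refine Subtype.ext (toM_inj ?_)
  show toM z = toM y
  rw [hzr, hy, T_third hv hw hr hvw b1 b2, T_third hv hw hu hvw hvu hwu]

end Cfsg.Agent.SUThree
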