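import Cfsg.Agent.SemiUnitary.Classes
import Cfsg.Agent.S0278

/-!
# Involutions of `SU₃`: unit vectors
-/

set_option autoImplicit false
set_option linter.style.haveILetI false
set_option linter.unusedSectionVars false

noncomputable section

open scoped Matrix

namespace Cfsg.Agent.SUThree

variable {F : Type*} [Field F] [Fintype F] [StarRing F]

/-- The Hermitian product, conjugate linear in the first argument. -/
def ip (v w : Fin 3 → F) : F := star v ⬝ᵥ w

theorem ip_symm (v w : Fin 3 → F) : star (ip v w) = ip w v := by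
  simp [ip, dotProduct, star_sum, star_mul', mul_comm]

theorem ip_smul_left (c : F) (v w : Fin 3 → F) : ip (c • v) w = star c * ip v w := by
  rw [ip, ip, star_smul, smul_dotProduct, smul_eq_mul]

theorem ip_smul_right (c : F) (v w : Fin 3 → F) : ip v (c • w) = c * ip v w := by
  rw [ip, ip, dotProduct_smul, smul_eq_mul]

theorem ip_add_right (v w w' : Fin 3 → F) : ip v (w + w') = ip v w + ip v w' := dotProduct_add _ _ _

/-- The involution attached to a unit vector. -/
def T (v : Fin 3 → F) : Matrix (Fin 3) (Fin 3) F := -1 + (2 : F) • Matrix.vecMulVec v (star v)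

theorem T_mulVec (v u : Fin 3 → F) : T v *ᵥ u = -u + (2 * ip v u) • v := by
  rw [T, Matrix.add_mulVec, Matrix.neg_mulVec, Matrix.one_mulVec, Matrix.smul_mulVec,
    Matrix.vecMulVec_mulVec, ← smul_smul]
  simp [ip]

theorem star_T (v : Fin 3 → F) : star (T v) = T v := by
  rw [T, star_add, star_neg, star_one, Matrix.star_eq_conjTranspose, Matrix.conjTranspose_smul,
    Matrix.conjTranspose_vecMulVec, star_star]
  simp

theorem T_sq {v : Fin 3 → F} (hv : ip v v = 1) : T v * T v = 1 := by
  refine Matrix.ext_iff_mulVec.2 fun u => ?_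
  rw [← Matrix.mulVec_mulVec, Matrix.one_mulVec, T_mulVec, T_mulVec]
  rw [ip_add_right, show ip v (-u) = - ip v u by simp [ip], ip_smul_right, hv]
  module

theorem det_T {v : Fin 3 → F} (hv : ip v v = 1) : (T v).det = 1 := by
  have h : star (v 0) * v 0 + star (v 1) * v 1 + star (v 2) * v 2 = 1 := by
    rw [← hv]; simp [ip, dotProduct, Fin.sum_univ_three]
  simp [T, Matrix.det_fin_three, Matrix.vecMulVec_apply]
  linear_combination 2 * h

theorem T_ne_one (h2 : (2 : F) ≠ 0) {v : Fin 3 → F} (hv : ip v v = 1) : T v ≠ 1 := by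
  intro h
  have htr : Matrix.trace (T v) = -1 := by
    rw [T, Matrix.trace_add, Matrix.trace_neg, Matrix.trace_one, Matrix.trace_smul,
      Matrix.trace_vecMulVec, dotProduct_comm, show star v ⬝ᵥ v = 1 from hv]
    simp
    norm_num
  rw [h, Matrix.trace_one] at htr
  have : (2 : F) * 2 = 0 := by
    simp at htr
    linear_combination htr
  exact mul_ne_zero h2 h2 this

theorem T_eq_iff (h2 : (2 : F) ≠ 0) {v w : Fin 3 → F} (hv : ip v v = 1) (hw : ip w w = 1) :
    T v = T w ↔ w = ip v w • v := by
  constructor
  · intro h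
    have h1 := congrArg (fun A => A *ᵥ w) h
    simp only [T_mulVec, hw, mul_one] at h1
    have h1' := add_left_cancel h1
    rw [mul_smul] at h1'
    exact (smul_right_injective _ h2 h1').symm
  · intro h
    set c := ip v w with hc
    have hcc : star c * c = 1 := by
      have := hw
      rw [h, ip_smul_left, ip_smul_right, hv, mul_one] at this
      exact this
    rw [h, T, T, star_smul, Matrix.vecMulVec_smul, Matrix.smul_vecMulVec, smul_smul (star c), hcc, one_smul]

theorem commute_T_iff (h2 : (2 : F) ≠ 0) {v w : Fin 3 → F} (hv : ip v v = 1) (hw : ip w w = 1) :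
    Commute (T v) (T w) ↔ ip v w = 0 ∨ T v = T w := by
  constructor
  · intro h
    refine or_iff_not_imp_left.2 fun hc => ?_
    have h1 := congrArg (fun A => A *ᵥ w) h.eq
    simp only [← Matrix.mulVec_mulVec, T_mulVec, hw, mul_one] at h1
    rw [ip_add_right, ip_smul_right, show ip v (-w) = -ip v w by simp [ip], ip_add_right,
      ip_smul_right, show ip w (-w) = -ip w w by simp [ip], hw] at h1
    have h4 : (2 * 2 * ip v w) • ((ip w v) • w) = (2 * 2 * ip v w) • v := by
      have e : -(-w + (2 : F) • w) + (2 * (-ip v w + 2 * ip v w)) • v -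
          (-(-w + (2 * ip v w) • v) + (2 * (-1 + 2 * ip v w * ip w v)) • w) = 0 :=
        sub_eq_zero.2 (by exact h1)
      rw [← sub_eq_zero, ← neg_eq_zero, ← e]
      module
    have h5 := smul_right_injective _ (mul_ne_zero (mul_ne_zero h2 h2) hc) h4
    exact ((T_eq_iff h2 hw hv).2 h5.symm).symm
  · rintro (h | h)
    · have h' : ip w v = 0 := by rw [← ip_symm, h, star_zero]
      refine Matrix.ext_iff_mulVec.2 fun u => ?_
      simp only [← Matrix.mulVec_mulVec, T_mulVec, ip_add_right, ip_smul_right, h, h', mul_zero, add_zero,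
        show ∀ a b : Fin 3 → F, ip a (-b) = -ip a b from fun a b => by simp [ip]]
      module
    · rw [h]

/-- The third vector of an orthogonal pair. -/
def cross (v w : Fin 3 → F) : Fin 3 → F := star (crossProduct v w)

theorem ip_cross_left (v w : Fin 3 → F) : ip v (cross v w) = 0 := by
  rw [← ip_symm, cross, ip, star_star, dotProduct_comm, dot_self_cross, star_zero]

theorem ip_cross_right (v w : Fin 3 → F) : ip w (cross v w) = 0 := by
  rw [← ip_symm, cross, ip, star_star, dotProduct_comm, dot_cross_self, star_zero]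

theorem star_crossProduct (v w : Fin 3 → F) :
    star (crossProduct v w) = crossProduct (star v) (star w) := by
  ext i
  fin_cases i <;> simp [cross_apply, mul_comm]

theorem ip_cross_self {v w : Fin 3 → F} (hv : ip v v = 1) (hw : ip w w = 1) :
    ip (cross v w) (cross v w) = 1 - ip v w * star (ip v w) := by
  rw [cross, ip, star_star, dotProduct_comm, star_crossProduct, cross_dot_cross]
  rw [show star v ⬝ᵥ v = 1 from hv, show star w ⬝ᵥ w = 1 from hw, ip_symm]
  simp only [ip]
  ring

theorem expand {a b c : Fin 3 → F} (ha : ip a a = 1) (hb : ip b b = 1) (hc : ip c c = 1)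
    (hab : ip a b = 0) (hac : ip a c = 0) (hbc : ip b c = 0) :
    Matrix.vecMulVec a (star a) + Matrix.vecMulVec b (star b) + Matrix.vecMulVec c (star c) = 1 := by
  let V : Matrix (Fin 3) (Fin 3) F := Matrix.of fun i j => ![a i, b i, c i] j
  have h : star V * V = 1 := by
    have hba : ip b a = 0 := by rw [← ip_symm, hab, star_zero]
    have hca : ip c a = 0 := by rw [← ip_symm, hac, star_zero]
    have hcb : ip c b = 0 := by rw [← ip_symm, hbc, star_zero]
    have hst : ∀ i j, (star V * V) i j = ip (fun k => V k i) (fun k => V k j) := fun i j => rfl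
    ext i j
    rw [hst]
    fin_cases i <;> fin_cases j <;>
      first
      | exact ha | exact hb | exact hc | exact hab | exact hac | exact hbc | exact hba | exact hca | exact hcb
  have h' : V * star V = 1 := mul_eq_one_comm.1 h
  rw [← h']
  ext i j
  simp [V, Matrix.mul_apply, Fin.sum_univ_three, Matrix.vecMulVec_apply]

theorem T_third {a b c : Fin 3 → F} (ha : ip a a = 1) (hb : ip b b = 1) (hc : ip c c = 1)
    (hab : ip a b = 0) (hac : ip a c = 0) (hbc : ip b c = 0) : T c = T a * T b := by
  have h := expand ha hb hc hab hac hbc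
  have hmul : Matrix.vecMulVec a (star a) * Matrix.vecMulVec b (star b) = 0 := by
    rw [Matrix.vecMulVec_mul_vecMulVec, show star a ⬝ᵥ b = 0 from hab]
    simp
  simp only [T, mul_add, add_mul, neg_mul, mul_neg, one_mul, mul_one, Matrix.smul_mul, Matrix.mul_smul,
    hmul, smul_zero, add_zero, neg_neg]
  rw [eq_sub_of_add_eq' h]
  module

theorem decompose {a b c : Fin 3 → F} (ha : ip a a = 1) (hb : ip b b = 1) (hc : ip c c = 1)
    (hab : ip a b = 0) (hac : ip a c = 0) (hbc : ip b c = 0) (u : Fin 3 → F) :
    u = ip a u • a + ip b u • b + ip c u • c := by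
  have h := congrArg (fun A => A *ᵥ u) (expand ha hb hc hab hac hbc)
  simp only [Matrix.add_mulVec, Matrix.vecMulVec_mulVec, Matrix.one_mulVec] at h
  conv_lhs => rw [← h]
  simp [ip]

end Cfsg.Agent.SUThree
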