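import Cfsg.Agent.SUThree.Basic

/-!
# Involutions of `SU₃`: classes and the commuting graph
-/

set_option autoImplicit false
set_option linter.style.haveILetI false
set_option linter.unusedSectionVars false

noncomputable section

open scoped Matrix
open Cfsg.Agent.SemiUnitary (star_mul_self_iff)

namespace Cfsg.Agent.SUThree

variable {F : Type*} [Field F] [Fintype F] [StarRing F] {q : ℕ}

local notation "M" => Matrix (Fin 3) (Fin 3) F
set_option quotPrecheck false in
local notation "𝕌" => ↥(Cfsg.SU 3 F q)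

/-- The matrix of an element. -/
abbrev toM (x : 𝕌) : M := ((x : Matrix.SpecialLinearGroup (Fin 3) F) : M)

theorem toM_inj {x y : 𝕌} (h : toM x = toM y) : x = y := Subtype.ext (Subtype.ext h)

theorem commute_toM {x y : 𝕌} : Commute (toM x) (toM y) ↔ Commute x y :=
  ⟨fun h => toM_inj h.eq, fun h => congrArg toM h.eq⟩

theorem ne_one_toM {x : 𝕌} : toM x ≠ 1 ↔ x ≠ 1 := by
  refine not_congr ⟨fun h => toM_inj h, fun h => ?_⟩
  subst h
  rfl

theorem exists_toM_T (hq : ∀ x : F, star x = x ^ q) {v : Fin 3 → F} (hv : ip v v = 1) :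
    ∃ x : 𝕌, toM x = T v :=
  ⟨⟨⟨T v, det_T hv⟩, (star_mul_self_iff hq _).2 (by
    show star (T v) * T v = 1
    rw [star_T, T_sq hv])⟩, rfl⟩

theorem star_toM_mul (hq : ∀ x : F, star x = x ^ q) (g : 𝕌) : star (toM g) * toM g = 1 :=
  (star_mul_self_iff hq g.1).1 g.2

theorem ip_mulVec {g : M} (hg : star g * g = 1) (v w : Fin 3 → F) : ip (g *ᵥ v) (g *ᵥ w) = ip v w := by
  rw [ip, ip, Matrix.star_mulVec, Matrix.dotProduct_mulVec, Matrix.vecMul_vecMul,
    ← Matrix.star_eq_conjTranspose, hg, Matrix.vecMul_one]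

theorem conj_T {g : M} (hg : star g * g = 1) (v : Fin 3 → F) : g * T v * star g = T (g *ᵥ v) := by
  have hg' : g * star g = 1 := mul_eq_one_comm.1 hg
  rw [T, T, mul_add, add_mul, Matrix.mul_smul, Matrix.smul_mul, Matrix.mul_vecMulVec,
    Matrix.vecMulVec_mul, Matrix.star_mulVec, mul_neg, mul_one, neg_mul, hg', Matrix.star_eq_conjTranspose]

theorem two_ne_zero_of_odd {p : ℕ} [CharP F p] (hp : Odd p) (hpp : p.Prime) : (2 : F) ≠ 0 := by
  intro h
  have h' : ((2 : ℕ) : F) = 0 := by exact_mod_cast h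
  have := (CharP.cast_eq_zero_iff F p 2).1 h'
  have hle := Nat.le_of_dvd two_pos this
  obtain ⟨k, hk⟩ := hp
  have := hpp.two_le
  omega

theorem odd_char (hqodd : Odd q) (hF : Fintype.card F = q ^ 2) (p : ℕ) [Fact p.Prime] [CharP F p] : Odd p := by
  obtain ⟨k, -, hk⟩ := FiniteField.card F p
  have : Odd (p ^ (k : ℕ)) := by rw [← hk, hF]; exact hqodd.pow
  exact (Nat.odd_pow_iff k.pos.ne').1 this

variable (hq : ∀ x : F, star x = x ^ q) (hqodd : Odd q) (hF : Fintype.card F = q ^ 2)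

include hqodd hF in
theorem two_ne : (2 : F) ≠ 0 := by
  obtain ⟨p, hp⟩ := CharP.exists F
  obtain ⟨-, hpp, -⟩ := FiniteField.card F p
  haveI := Fact.mk hpp
  exact two_ne_zero_of_odd (odd_char hqodd hF p) hpp

set_option maxHeartbeats 1600000 in
/-- Two involutions have the same characteristic polynomial. -/
theorem charpoly_involution (h2 : (2 : F) ≠ 0) {A : M} (hAA : A * A = 1) (hA : A ≠ 1) (hd : A.det = 1) :
    A.charpoly = Polynomial.X ^ 3 + Polynomial.X ^ 2 - Polynomial.X - 1 := by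
  classical
  have hu : IsUnit A := IsUnit.of_mul_eq_one A hAA
  have hinv : A⁻¹ = A := Matrix.inv_eq_left_inv hAA
  have h := Matrix.charpoly_inv A hu
  rw [hinv, hd, Ring.inverse_one, map_one, mul_one, Fintype.card_fin, ← Matrix.reverse_charpoly] at h
  have hdeg : A.charpoly.natDegree = 3 := (Matrix.charpoly_natDegree_eq_dim A).trans (Fintype.card_fin 3)
  have hc3 : A.charpoly.coeff 3 = 1 := by
    have := (Matrix.charpoly_monic A).coeff_natDegree
    rwa [hdeg] at this
  set c₂ := A.charpoly.coeff 2 with hc₂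
  have e1 := congrArg (fun f : Polynomial F => f.coeff 1) h
  have e0 := congrArg (fun f : Polynomial F => f.coeff 0) h
  rw [show ((-1 : Polynomial F) ^ 3) = Polynomial.C (-1) by simp; norm_num] at e1 e0
  simp only [Polynomial.coeff_C_mul, Polynomial.coeff_reverse, hdeg] at e1 e0
  rw [Polynomial.revAt_le (by norm_num : 1 ≤ 3)] at e1
  rw [Polynomial.revAt_le (by norm_num : 0 ≤ 3)] at e0
  norm_num [hc3] at e1 e0
  have hsum : A.charpoly = Polynomial.X ^ 3 + Polynomial.C c₂ * Polynomial.X ^ 2 -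
      Polynomial.C c₂ * Polynomial.X - 1 := by
    conv_lhs => rw [Polynomial.as_sum_range_C_mul_X_pow A.charpoly, hdeg]
    simp only [Finset.sum_range_succ, Finset.sum_range_zero, e0, e1, hc3, ← hc₂, map_neg, map_one]
    ring
  have hCH := Matrix.aeval_self_charpoly A
  rw [hsum] at hCH
  simp only [map_sub, map_add, map_pow, map_mul, Polynomial.aeval_X, Polynomial.aeval_C, map_one] at hCH
  rw [pow_succ, pow_two, hAA, one_mul, mul_one, Algebra.algebraMap_eq_smul_one, smul_one_mul] at hCH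
  have hfac : (1 - c₂) • (A - 1) = 0 := by
    rw [← hCH]
    module
  have hc : c₂ = 1 := by
    rcases smul_eq_zero.1 hfac with h' | h'
    · exact (sub_eq_zero.1 h').symm
    · exact absurd (sub_eq_zero.1 h') hA
  rw [hsum, hc, map_one, one_mul, one_mul]

include hq hqodd hF in
theorem involutions_conj (t x : 𝕌) (ht : t ≠ 1) (ht2 : t * t = 1) (hx : x ≠ 1) (hx2 : x * x = 1) :
    ∃ g : 𝕌, g * t * g⁻¹ = x := by
  obtain ⟨p, hp⟩ := CharP.exists F
  obtain ⟨-, hpp, -⟩ := FiniteField.card F p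
  haveI := Fact.mk hpp
  have h2 := two_ne hqodd hF
  have hord : ∀ y : 𝕌, y ≠ 1 → y * y = 1 → (orderOf y).Coprime p := fun y hy hy2 => by
    rw [orderOf_eq_prime (p := 2) (by rw [pow_two, hy2]) hy]
    exact Nat.coprime_two_left.2 (odd_char hqodd hF p)
  have hch : ∀ y : 𝕌, y ≠ 1 → y * y = 1 → (toM y).charpoly =
      Polynomial.X ^ 3 + Polynomial.X ^ 2 - Polynomial.X - 1 := fun y hy hy2 =>
    charpoly_involution h2 (congrArg toM hy2) (ne_one_toM.2 hy) y.1.2
  exact isConj_iff.1 (SemiUnitary.su_isConj hF p t x (hord t ht ht2) (hord x hx hx2)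
    ((hch t ht ht2).trans (hch x hx hx2).symm))

/-- The first basis vector. -/
def e₀ : Fin 3 → F := Pi.single 0 1

theorem ip_e₀ : ip (e₀ (F := F)) e₀ = 1 := by
  simp [e₀, ip, ← Pi.single_star]

theorem ip_e₀_left (w : Fin 3 → F) : ip e₀ w = w 0 := by
  simp [e₀, ip, ← Pi.single_star]

include hq hqodd hF in
theorem exists_T (x : 𝕌) (hx : x ≠ 1) (hx2 : x * x = 1) : ∃ v, ip v v = 1 ∧ toM x = T v := by
  obtain ⟨t, ht⟩ := exists_toM_T (q := q) hq (ip_e₀ (F := F))
  have h2 := two_ne hqodd hF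
  have ht1 : t ≠ 1 := ne_one_toM.1 (by rw [ht]; exact T_ne_one h2 ip_e₀)
  have ht2 : t * t = 1 := toM_inj (by show toM t * toM t = 1; rw [ht, T_sq ip_e₀])
  obtain ⟨g, hg⟩ := involutions_conj hq hqodd hF t x ht1 ht2 hx hx2
  refine ⟨toM g *ᵥ e₀, by rw [ip_mulVec (star_toM_mul hq g), ip_e₀], ?_⟩
  rw [← hg, ← conj_T (star_toM_mul hq g), ← ht]
  show toM g * toM t * toM (g⁻¹) = _
  congr 1
  have h1 : toM g * toM g⁻¹ = 1 := congrArg toM (mul_inv_cancel g)
  calc toM g⁻¹ = (star (toM g) * toM g) * toM g⁻¹ := by rw [star_toM_mul hq, one_mul]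
    _ = _ := by rw [mul_assoc, h1, mul_one]

/-- An orthogonal companion of a unit vector. -/
theorem exists_orth (hq : ∀ x : F, star x = x ^ q) (hqodd : Odd q) (hF : Fintype.card F = q ^ 2)
    {v : Fin 3 → F} (hv : ip v v = 1) : ∃ a, ip a a = 1 ∧ ip v a = 0 := by
  obtain ⟨x, hx⟩ := exists_toM_T (q := q) hq hv
  obtain ⟨t, ht⟩ := exists_toM_T (q := q) hq (ip_e₀ (F := F))
  have h2 := two_ne hqodd hF
  obtain ⟨g, hg⟩ := involutions_conj hq hqodd hF t x
    (ne_one_toM.1 (by rw [ht]; exact T_ne_one h2 ip_e₀))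
    (toM_inj (by show toM t * toM t = 1; rw [ht, T_sq ip_e₀]))
    (ne_one_toM.1 (by rw [hx]; exact T_ne_one h2 hv))
    (toM_inj (by show toM x * toM x = 1; rw [hx, T_sq hv]))
  have hgu := star_toM_mul hq g
  have hgT : T v = T (toM g *ᵥ e₀) := by
    rw [← hx, ← hg, ← conj_T hgu, ← ht]
    show toM g * toM t * toM (g⁻¹) = _
    congr 1
    have h1 : toM g * toM g⁻¹ = 1 := congrArg toM (mul_inv_cancel g)
    calc toM g⁻¹ = (star (toM g) * toM g) * toM g⁻¹ := by rw [hgu, one_mul]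
      _ = _ := by rw [mul_assoc, h1, mul_one]
  have he := (T_eq_iff h2 (by rw [ip_mulVec hgu, ip_e₀]) hv).1 hgT.symm
  have h1' : ip (Pi.single (1 : Fin 3) (1 : F)) (Pi.single 1 1) = 1 := by simp [ip, ← Pi.single_star]
  refine ⟨toM g *ᵥ Pi.single 1 1, by rw [ip_mulVec hgu, h1'], ?_⟩
  rw [he, ip_smul_left, ip_mulVec hgu, ip_e₀_left, Pi.single_eq_of_ne (by decide), mul_zero]

include hq hqodd hF in
/-- Unit vectors cover each involution `q + 1` times. -/
theorem card_fibre (Q : M → Prop) :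
    Nat.card {w : Fin 3 → F // ip w w = 1 ∧ Q (T w)} =
      (q + 1) * Nat.card {x : 𝕌 // (x ≠ 1 ∧ x * x = 1) ∧ Q (toM x)} := by
  classical
  have h2 := two_ne hqodd hF
  have hex : ∀ w : {w : Fin 3 → F // ip w w = 1 ∧ Q (T w)},
      ∃ x : {x : 𝕌 // (x ≠ 1 ∧ x * x = 1) ∧ Q (toM x)}, toM x.1 = T w.1 := by
    rintro ⟨w, hw, hQ⟩
    obtain ⟨x, hx⟩ := exists_toM_T (q := q) hq hw
    exact ⟨⟨x, ⟨ne_one_toM.1 (by rw [hx]; exact T_ne_one h2 hw),
      toM_inj (by show toM x * toM x = 1; rw [hx, T_sq hw])⟩, hx ▸ hQ⟩, hx⟩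
  choose φ hφ using hex
  have hfib : ∀ x, Nat.card {w // φ w = x} = q + 1 := by
    rintro ⟨x, ⟨hx1, hx2⟩, hQ⟩
    obtain ⟨v, hv, hxv⟩ := exists_T hq hqodd hF x hx1 hx2
    rw [← (Classical.U.sqField_of_fintype hF).card_norm_one]
    have hnorm : ∀ c : F, c ^ (q + 1) = star c * c := fun c => by rw [hq, pow_succ]
    refine Nat.card_congr
      { toFun := fun w => ⟨ip v w.1.1, ?_⟩
        invFun := fun c => ⟨⟨c.1 • v, ?_, ?_⟩, ?_⟩
        left_inv := fun w => ?_
        right_inv := fun c => ?_ }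
    · have h := (T_eq_iff h2 hv w.1.2.1).1 (by rw [← hxv, ← hφ w.1, w.2])
      have h' := w.1.2.1
      rw [h, ip_smul_left, ip_smul_right, hv, mul_one] at h'
      rw [hnorm]
      exact h'
    · rw [ip_smul_left, ip_smul_right, hv, mul_one, ← hnorm, c.2]
    · have : T (c.1 • v) = T v := ((T_eq_iff h2 hv (by
        rw [ip_smul_left, ip_smul_right, hv, mul_one, ← hnorm, c.2])).2 (by
        rw [ip_smul_right, hv, mul_one])).symm
      rw [this, ← hxv]
      exact hQ
    · refine Subtype.ext (toM_inj ?_)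
      rw [hφ]
      show T (c.1 • v) = toM x
      rw [hxv]
      exact ((T_eq_iff h2 hv (by rw [ip_smul_left, ip_smul_right, hv, mul_one, ← hnorm, c.2])).2 (by
        rw [ip_smul_right, hv, mul_one])).symm
    · refine Subtype.ext (Subtype.ext ?_)
      exact ((T_eq_iff h2 hv w.1.2.1).1 (by rw [← hxv, ← hφ w.1, w.2])).symm
    · refine Subtype.ext ?_
      show ip v (c.1 • v) = c.1
      rw [ip_smul_right, hv, mul_one]
  rw [← Nat.card_congr (Equiv.sigmaFiberEquiv φ), Nat.card_sigma, Finset.sum_congr rfl (fun x _ => hfib x),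
    Finset.sum_const, smul_eq_mul, Finset.card_univ, Nat.card_eq_fintype_card, mul_comm]

include hq hF in
theorem card_vectors (n : ℕ) (c : F) :
    Nat.card {w : Fin n → F // star w ⬝ᵥ w = c} =
      Nat.card {w : Fin n → F // Classical.U.herm q w w = c} := by
  refine Nat.card_congr (Equiv.subtypeEquivRight fun w => ?_)
  rw [show star w ⬝ᵥ w = Classical.U.herm q w w by
    simp only [Classical.U.herm_def, dotProduct, Pi.star_apply, hq]
    exact Finset.sum_congr rfl fun i _ => mul_comm _ _]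

include hq hqodd hF in
theorem card_involutions : Nat.card {x : 𝕌 // x ≠ 1 ∧ x * x = 1} = q ^ 2 * (q ^ 2 - q + 1) := by
  have h := card_fibre hq hqodd hF fun _ => True
  simp only [and_true] at h
  have h3 := ((Classical.U.sqField_of_fintype hF).card_values_int 3).1
  rw [← card_vectors hq hF 3 1] at h3
  change (q : ℤ) * (Nat.card {w : Fin 3 → F // ip w w = 1} : ℕ) = _ at h3
  rw [h] at h3
  have hq1 := (Classical.U.sqField_of_fintype hF).one_lt
  refine Int.natCast_inj.1 (mul_left_cancel₀ (show (q : ℤ) * (q + 1) ≠ 0 by positivity) ?_)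
  push_cast [Nat.cast_sub (Nat.le_self_pow two_ne_zero q)] at h3 ⊢
  linear_combination h3

include hq hqodd hF in
theorem card_centralizer (t : 𝕌) (ht : t ≠ 1) (ht2 : t * t = 1) :
    Nat.card ↥(Subgroup.centralizer ({t} : Set 𝕌)) = q * (q + 1) * (q ^ 2 - 1) := by
  classical
  have hq1 := (Classical.U.sqField_of_fintype hF).one_lt
  have horb : Nat.card (MulAction.orbit (ConjAct 𝕌) t) = q ^ 2 * (q ^ 2 - q + 1) := by
    rw [← card_involutions hq hqodd hF]
    refine Nat.card_congr (Equiv.subtypeEquivRight fun x => ⟨?_, fun hx => ?_⟩)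
    · rintro ⟨g, rfl⟩
      show ConjAct.ofConjAct g * t * (ConjAct.ofConjAct g)⁻¹ ≠ 1 ∧ _
      refine ⟨fun h => ht (by rwa [conj_eq_one_iff] at h), ?_⟩
      show ConjAct.ofConjAct g * t * (ConjAct.ofConjAct g)⁻¹ * (ConjAct.ofConjAct g * t * (ConjAct.ofConjAct g)⁻¹) = 1
      rw [show ∀ a : 𝕌, a * t * a⁻¹ * (a * t * a⁻¹) = a * (t * t) * a⁻¹ from fun a => by group, ht2]
      group
    · obtain ⟨g, hg⟩ := involutions_conj hq hqodd hF t x ht ht2 hx.1 hx.2
      exact ⟨ConjAct.toConjAct g, hg⟩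
  have hstab : Nat.card (MulAction.stabilizer (ConjAct 𝕌) t) = Nat.card ↥(Subgroup.centralizer ({t} : Set 𝕌)) := by
    rw [ConjAct.stabilizer_eq_centralizer]
    rfl
  have h := MulAction.card_orbit_mul_card_stabilizer_eq_card_group (ConjAct 𝕌) t
  simp only [← Nat.card_eq_fintype_card] at h
  rw [hstab, horb, show Nat.card (ConjAct 𝕌) = Nat.card 𝕌 from rfl] at h
  have hsu := Cfsg.Agent.S0278.result hF 3 (by norm_num)
  rw [← h, Finset.prod_range_succ, Finset.prod_range_succ, Finset.prod_range_succ, Finset.prod_range_zero,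
    one_mul, if_pos (by decide), if_neg (by decide), if_pos (by decide)] at hsu
  simp only [zero_add, pow_one, show (1 + 1) = 2 from rfl, show (2 + 1) = 3 from rfl,
    show 3 * (3 - 1) / 2 = 3 from rfl] at hsu
  set C := Nat.card ↥(Subgroup.centralizer ({t} : Set 𝕌))
  have hq2 : q ≤ q ^ 2 := Nat.le_self_pow two_ne_zero q
  refine Int.natCast_inj.1 (mul_left_cancel₀ (show ((q : ℤ) + 1) * ((q : ℤ) ^ 2 * ((q : ℤ) ^ 2 - q + 1)) ≠ 0 by
    refine mul_ne_zero (by positivity) (mul_ne_zero (by positivity) ?_)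
    nlinarith) ?_)
  have hsu' := congrArg (Nat.cast (R := ℤ)) hsu
  push_cast [Nat.cast_sub hq2, Nat.cast_sub (Nat.one_le_pow 2 q (by omega))] at hsu' ⊢
  linear_combination hsu'

end Cfsg.Agent.SUThree
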